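import Mathlib
import Cfsg.Agent.H588.PQR.Ratio
import Cfsg.Agent.Characters.Values

/-!
# Averages of characters over sets, double cosets (helper606, for S3988)

* `Avg X r` : `‖∑_{x ∈ X} χ(x)‖ ≤ r |X| ‖χ(1)‖` for all nontrivial irreducible characters
* `Avg.base` : from a bound of the degrees
* `Avg.lift` : lifting along `G ≥ N → K`
* `sq_le_of_cover` : `⟨χ_H, 1⟩² ≤` number of the double cosets of `H`
* `Avg.exists_mul_mem` : the criterion for products of conjugates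
-/

set_option autoImplicit false
set_option linter.dupNamespace false
set_option linter.unusedSectionVars false

open scoped ComplexConjugate
open Cfsg

namespace Cfsg.Agent.H606.Avg

open Cfsg.Agent.Characters.Core Cfsg.Agent.Characters.ClassMul
open Cfsg.Agent.H588.Ratio (sum_norm_sq sum_ne_one_norm_sq one sum_norm_sq_set)

universe u v

/-- the average of the nontrivial irreducible characters over `X` is at most `r` times the degree -/
def Avg {G : Type u} [Group G] (X : Finset G) (r : ℝ) : Prop :=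
  ∀ χ : G → ℂ, IsIrrCharacter G χ → χ ≠ 1 → ‖∑ x ∈ X, χ x‖ ≤ r * X.card * ‖χ 1‖

section base

variable {G : Type u} [Group G] [Finite G]

/-- `∑_g |χ(g)|² = |G|` -/
theorem sum_sq [Fintype G] {χ : G → ℂ} (hχ : IsIrrCharacter G χ) : ∑ g : G, ‖χ g‖ ^ 2 = (Nat.card G : ℝ) := by
  have h1 := classInner_irr_self hχ
  rw [classInner_def] at h1
  have h0 : (Nat.card G : ℂ) ≠ 0 := by exact_mod_cast Nat.card_pos.ne'
  have h2 : ∑ g : G, χ g * conj (χ g) = (Nat.card G : ℂ) := by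
    field_simp at h1
    exact h1
  have h3 : ((∑ g : G, ‖χ g‖ ^ 2 : ℝ) : ℂ) = ((Nat.card G : ℝ) : ℂ) := by
    rw [Complex.ofReal_natCast, ← h2, Complex.ofReal_sum]
    refine Finset.sum_congr rfl fun g _ => ?_
    rw [Complex.mul_conj, Complex.normSq_eq_norm_sq]
  exact_mod_cast h3

theorem Avg.base {X : Finset G} {r D : ℝ} (hr : 0 ≤ r) (hD0 : 0 ≤ D)
    (hD : ∀ χ : G → ℂ, IsIrrCharacter G χ → χ ≠ 1 → D ≤ ‖χ 1‖)
    (hnum : (Nat.card G : ℝ) ≤ r ^ 2 * X.card * D ^ 2) : Avg X r := by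
  intro χ hχ h1
  have := Fintype.ofFinite G
  have h2 := hD χ hχ h1
  have h3 : ‖∑ x ∈ X, χ x‖ ^ 2 ≤ X.card * ∑ x ∈ X, ‖χ x‖ ^ 2 := by
    have h4 : ‖∑ x ∈ X, χ x‖ ≤ ∑ x ∈ X, ‖χ x‖ := norm_sum_le _ _
    have h5 := Finset.sum_mul_sq_le_sq_mul_sq X (fun _ => (1 : ℝ)) (fun x => ‖χ x‖)
    simp only [one_mul, one_pow, Finset.sum_const, nsmul_eq_mul, mul_one] at h5
    exact (pow_le_pow_left₀ (norm_nonneg _) h4 2).trans h5
  have h4 : ∑ x ∈ X, ‖χ x‖ ^ 2 ≤ (Nat.card G : ℝ) := by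
    rw [← sum_sq hχ]
    exact Finset.sum_le_univ_sum_of_nonneg fun _ => by positivity
  have h5 : ‖∑ x ∈ X, χ x‖ ^ 2 ≤ (r * X.card * ‖χ 1‖) ^ 2 := by
    calc ‖∑ x ∈ X, χ x‖ ^ 2 ≤ X.card * (Nat.card G : ℝ) := h3.trans (mul_le_mul_of_nonneg_left h4 (by positivity))
      _ ≤ X.card * (r ^ 2 * X.card * D ^ 2) := mul_le_mul_of_nonneg_left hnum (by positivity)
      _ = (r * X.card) ^ 2 * D ^ 2 := by ring
      _ ≤ (r * X.card) ^ 2 * ‖χ 1‖ ^ 2 := mul_le_mul_of_nonneg_left (pow_le_pow_left₀ hD0 h2 2) (by positivity)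
      _ = (r * X.card * ‖χ 1‖) ^ 2 := by ring
  exact abs_le_of_sq_le_sq' h5 (by positivity) |>.2

end base

section lift

variable {G : Type u} [Group G] [Finite G] {K : Type v} [Group K] [Finite K] {N : Subgroup G}

/-- the preimage of a subset of the quotient -/
noncomputable def pre [Fintype N] (φ : ↥N →* K) (R : Finset K) : Finset G :=
  open scoped Classical in (Finset.univ.filter fun n : N => φ n ∈ R).map ⟨Subtype.val, Subtype.val_injective⟩

theorem card_fiber [Fintype N] (φ : ↥N →* K) (hφ : Function.Surjective φ) (k : K) :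
    open scoped Classical in (Finset.univ.filter fun n : N => φ n = k).card = Nat.card φ.ker := by
  classical
  obtain ⟨m, rfl⟩ := hφ k
  rw [← Fintype.card_subtype, ← Nat.card_eq_fintype_card]
  refine Nat.card_congr ⟨fun n => ⟨m⁻¹ * n.1, ?_⟩, fun a => ⟨m * a.1, ?_⟩, fun n => ?_, fun a => ?_⟩
  · rw [MonoidHom.mem_ker, map_mul, map_inv, n.2, inv_mul_cancel]
  · rw [map_mul, MonoidHom.mem_ker.1 a.2, mul_one]
  · exact Subtype.ext (mul_inv_cancel_left _ _)
  · exact Subtype.ext (inv_mul_cancel_left _ _)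

theorem mem_pre [Fintype N] {φ : ↥N →* K} {R : Finset K} {g : G} :
    g ∈ pre φ R ↔ ∃ h : g ∈ N, φ ⟨g, h⟩ ∈ R := by
  classical
  unfold pre
  simp only [Finset.mem_map, Finset.mem_filter, Finset.mem_univ, true_and, Function.Embedding.coeFn_mk]
  constructor
  · rintro ⟨n, hn, rfl⟩
    exact ⟨n.2, hn⟩
  · rintro ⟨h, hg⟩
    exact ⟨⟨g, h⟩, hg, rfl⟩

theorem sum_pre [Fintype N] (φ : ↥N →* K) (R : Finset K) {M : Type*} [AddCommMonoid M] (f : G → M) :
    open scoped Classical in ∑ g ∈ pre φ R, f g = ∑ k ∈ R, ∑ n ∈ Finset.univ.filter (fun n : N => φ n = k), f n := by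
  classical
  unfold pre
  rw [Finset.sum_map]
  have h1 := Finset.sum_fiberwise_of_maps_to (s := Finset.univ.filter fun n : N => φ n ∈ R) (t := R) (g := fun n => φ n)
    (fun n hn => (Finset.mem_filter.1 hn).2) (fun n => f (n : G))
  show ∑ n ∈ Finset.univ.filter (fun n : N => φ n ∈ R), f (n : G) = _
  rw [← h1]
  refine Finset.sum_congr rfl fun k hk => Finset.sum_congr ?_ fun _ _ => rfl
  ext n
  simp only [Finset.mem_filter, Finset.mem_univ, true_and]
  exact ⟨fun h => h.2, fun h => ⟨h ▸ hk, h⟩⟩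

theorem card_pre [Fintype N] {φ : ↥N →* K} (hφ : Function.Surjective φ) (R : Finset K) :
    (pre φ R).card = Nat.card φ.ker * R.card := by
  classical
  rw [Finset.card_eq_sum_ones, sum_pre φ R (fun _ => 1)]
  simp only [← Finset.card_eq_sum_ones]
  rw [Finset.sum_congr rfl fun k _ => card_fiber φ hφ k, Finset.sum_const, smul_eq_mul, mul_comm]

/-- **Lifting.** -/
theorem Avg.lift [Fintype N] {φ : ↥N →* K} (hφ : Function.Surjective φ) {R : Finset K} {r τ : ℝ} (hr : 0 ≤ r)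
    (h : Avg R r) (hτ : ∀ χ : G → ℂ, IsIrrCharacter G χ → χ ≠ 1 → ∀ m : ℕ,
      classInner (fun n : N => χ n) 1 = m → (m : ℝ) ≤ τ * ‖χ 1‖) : Avg (pre φ R) (τ + r) := by
  classical
  intro χ hχ h1
  have := Fintype.ofFinite G
  have := Fintype.ofFinite K
  have := finite_irr (G := K)
  have := Fintype.ofFinite (IrrCharacter K)
  have hθ : IsCharacter N (fun n : N => χ n) := isCharacter_comp N.subtype (isIrr_isCharacter hχ)
  have hK0 : (Nat.card K : ℂ) ≠ 0 := by exact_mod_cast Nat.card_pos.ne'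
  have hN0 : (Nat.card N : ℂ) ≠ 0 := by exact_mod_cast Nat.card_pos.ne'
  have hcard : Nat.card N = Nat.card K * Nat.card φ.ker := by
    have h2 := φ.ker.card_mul_index
    rw [Subgroup.index_ker, Nat.card_congr (Equiv.ofBijective (fun x : φ.range => (x : K))
      ⟨Subtype.val_injective, fun k => by
        obtain ⟨n, hn⟩ := hφ k
        exact ⟨⟨k, n, hn⟩, rfl⟩⟩)] at h2
    rw [← h2, mul_comm]
  set a : ℕ := Nat.card φ.ker with ha
  have ha0 : 0 < a := Nat.card_pos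
  -- the pushed function
  let f : K → ℂ := fun k => ∑ n ∈ Finset.univ.filter (fun n : N => φ n = k), χ n
  have hf : IsClassFunction K f := by
    intro k x
    obtain ⟨m, rfl⟩ := hφ x
    show ∑ n ∈ Finset.univ.filter (fun n : N => φ n = _), χ n = ∑ n ∈ Finset.univ.filter (fun n : N => φ n = _), χ n
    symm
    refine Finset.sum_bij (fun n _ => m * n * m⁻¹) ?_ ?_ ?_ ?_
    · intro n hn
      rw [Finset.mem_filter] at hn ⊢
      refine ⟨Finset.mem_univ _, ?_⟩
      rw [map_mul, map_mul, map_inv, hn.2]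
    · intro n _ n' _ e
      exact mul_left_cancel (mul_right_cancel e)
    · intro n hn
      rw [Finset.mem_filter] at hn
      refine ⟨m⁻¹ * n * m, ?_, by group⟩
      rw [Finset.mem_filter]
      refine ⟨Finset.mem_univ _, ?_⟩
      rw [map_mul, map_mul, map_inv, hn.2]
      group
    · intro n _
      exact (isIrr_isClassFunction hχ (n : G) (m : G)).symm
  -- the coefficients
  have hmul : ∀ ψ : IrrCharacter K, ∃ m : ℕ, classInner f (ψ : K → ℂ) = a * m ∧
      classInner (fun n : N => χ n) (fun n : N => (ψ : K → ℂ) (φ n)) = m := by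
    intro ψ
    obtain ⟨m, hm⟩ := classInner_isNat hθ (isCharacter_comp φ (isIrr_isCharacter ψ.2))
    refine ⟨m, ?_, hm⟩
    have hm' : classInner (fun n : N => χ n) (fun n : N => (ψ : K → ℂ) (φ n)) = m := hm
    rw [classInner_def] at hm' ⊢
    have e : ∑ k : K, f k * conj ((ψ : K → ℂ) k) = ∑ n : N, χ n * conj ((ψ : K → ℂ) (φ n)) := by
      have e1 : ∀ k : K, f k * conj ((ψ : K → ℂ) k) =
          ∑ n ∈ Finset.univ.filter (fun n : N => φ n = k), χ n * conj ((ψ : K → ℂ) (φ n)) := by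
        intro k
        show (∑ n ∈ Finset.univ.filter (fun n : N => φ n = k), χ n) * _ = _
        rw [Finset.sum_mul]
        refine Finset.sum_congr rfl fun n hn => ?_
        rw [(Finset.mem_filter.1 hn).2]
      rw [Finset.sum_congr rfl fun k _ => e1 k]
      exact Finset.sum_fiberwise Finset.univ (fun n : N => φ n) (fun n : N => χ n * conj ((ψ : K → ℂ) (φ n)))
    have ha0C : (a : ℂ) ≠ 0 := by exact_mod_cast ha0.ne'
    rw [e, ← hm', hcard]
    push_cast
    rw [mul_inv, mul_comm (Nat.card K : ℂ)⁻¹ (a : ℂ)⁻¹, ← mul_assoc, ← mul_assoc, mul_inv_cancel₀ ha0C, one_mul]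
  choose m hm hm' using hmul
  have hfsum : ∀ k, f k = ∑ ψ : IrrCharacter K, (a * m ψ : ℂ) * (ψ : K → ℂ) k := by
    intro k
    conv_lhs => rw [classFunction_eq_sum hf]
    rw [Finset.sum_apply]
    refine Finset.sum_congr rfl fun ψ _ => ?_
    rw [Pi.smul_apply, hm, smul_eq_mul]
  -- degrees
  have hdeg : ∀ ψ : IrrCharacter K, ((ψ : K → ℂ) 1 : ℂ) = (‖(ψ : K → ℂ) 1‖ : ℂ) := by
    intro ψ
    obtain ⟨n, -, hn⟩ := isIrr_apply_one ψ.2
    rw [hn, Complex.norm_natCast]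
    simp
  have hsum : ∑ ψ : IrrCharacter K, (m ψ : ℝ) * ‖(ψ : K → ℂ) 1‖ ≤ ‖χ 1‖ := by
    have h2 := hfsum 1
    have h3 : ‖f 1‖ ≤ a * ‖χ 1‖ := by
      show ‖∑ n ∈ Finset.univ.filter (fun n : N => φ n = 1), χ n‖ ≤ _
      refine (norm_sum_le _ _).trans ?_
      refine (Finset.sum_le_card_nsmul _ _ ‖χ 1‖ fun n _ => ?_).trans ?_
      · obtain ⟨d, ρ, rfl⟩ := isIrr_isCharacter hχ
        have e := Cfsg.Agent.Characters.Values.norm_character_le ρ (n : G)
        rw [Representation.char_one, Complex.norm_natCast]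
        exact e
      · rw [card_fiber φ hφ 1, nsmul_eq_mul]
    have h4 : f 1 = ((a * ∑ ψ : IrrCharacter K, (m ψ : ℝ) * ‖(ψ : K → ℂ) 1‖ : ℝ) : ℂ) := by
      rw [h2]
      push_cast
      rw [Finset.mul_sum]
      refine Finset.sum_congr rfl fun ψ _ => ?_
      rw [mul_assoc]
      conv_lhs => rw [hdeg ψ]
    rw [h4, Complex.norm_real, Real.norm_eq_abs, abs_of_nonneg (by positivity)] at h3
    have ha' : (0 : ℝ) < a := by exact_mod_cast ha0
    exact le_of_mul_le_mul_left h3 ha'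
  -- the sum
  rw [sum_pre φ R χ, card_pre hφ R]
  have h2 : ∑ k ∈ R, ∑ n ∈ Finset.univ.filter (fun n : N => φ n = k), χ n =
      a * ∑ ψ : IrrCharacter K, (m ψ : ℂ) * ∑ k ∈ R, (ψ : K → ℂ) k := by
    have e : ∀ k ∈ R, ∑ n ∈ Finset.univ.filter (fun n : N => φ n = k), χ n =
        ∑ ψ : IrrCharacter K, (a * m ψ : ℂ) * (ψ : K → ℂ) k := fun k _ => hfsum k
    rw [Finset.sum_congr rfl e, Finset.sum_comm, Finset.mul_sum]
    refine Finset.sum_congr rfl fun ψ _ => ?_
    rw [← Finset.mul_sum]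
    ring
  rw [h2, norm_mul, Complex.norm_natCast]
  have h3 : ‖∑ ψ : IrrCharacter K, (m ψ : ℂ) * ∑ k ∈ R, (ψ : K → ℂ) k‖ ≤ R.card * ((τ + r) * ‖χ 1‖) := by
    refine (norm_sum_le _ _).trans ?_
    rw [← Finset.add_sum_erase _ _ (Finset.mem_univ (one : IrrCharacter K))]
    have e1 : ‖(m (one : IrrCharacter K) : ℂ) * ∑ k ∈ R, ((one : IrrCharacter K) : K → ℂ) k‖ ≤ R.card * (τ * ‖χ 1‖) := by
      have e2 := hτ χ hχ h1 (m one) (by
        rw [← hm' one]
        rfl)
      rw [norm_mul, Complex.norm_natCast]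
      have e3 : ‖∑ k ∈ R, ((one : IrrCharacter K) : K → ℂ) k‖ = R.card := by
        show ‖∑ k ∈ R, (1 : ℂ)‖ = _
        rw [Finset.sum_const, nsmul_eq_mul, mul_one, Complex.norm_natCast]
      rw [e3, mul_comm]
      exact mul_le_mul_of_nonneg_left e2 (Nat.cast_nonneg _)
    have e2 : ∑ ψ ∈ Finset.univ.erase (one : IrrCharacter K), ‖(m ψ : ℂ) * ∑ k ∈ R, (ψ : K → ℂ) k‖ ≤
        R.card * (r * ‖χ 1‖) := by
      have e3 : ∀ ψ ∈ Finset.univ.erase (one : IrrCharacter K), ‖(m ψ : ℂ) * ∑ k ∈ R, (ψ : K → ℂ) k‖ ≤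
          r * R.card * (m ψ * ‖(ψ : K → ℂ) 1‖) := by
        intro ψ hψ
        have e4 := h ψ ψ.2 (fun e => (Finset.mem_erase.1 hψ).1 (Subtype.ext e))
        rw [norm_mul, Complex.norm_natCast]
        calc (m ψ : ℝ) * ‖∑ k ∈ R, (ψ : K → ℂ) k‖ ≤ m ψ * (r * R.card * ‖(ψ : K → ℂ) 1‖) :=
              mul_le_mul_of_nonneg_left e4 (by positivity)
          _ = _ := by ring
      refine (Finset.sum_le_sum e3).trans ?_
      rw [← Finset.mul_sum]
      have e5 : ∑ ψ ∈ Finset.univ.erase (one : IrrCharacter K), (m ψ : ℝ) * ‖(ψ : K → ℂ) 1‖ ≤ ‖χ 1‖ :=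
        (Finset.sum_le_sum_of_subset_of_nonneg (Finset.erase_subset _ _) fun _ _ _ => by positivity).trans hsum
      calc r * R.card * _ ≤ r * R.card * ‖χ 1‖ := mul_le_mul_of_nonneg_left e5 (mul_nonneg hr (Nat.cast_nonneg _))
        _ = _ := by ring
    linarith
  calc (a : ℝ) * _ ≤ a * (R.card * ((τ + r) * ‖χ 1‖)) := mul_le_mul_of_nonneg_left h3 (by positivity)
    _ = _ := by push_cast; ring

end lift

end Cfsg.Agent.H606.Avg
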