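import Cfsg.Agent.H606.PQR.Avg
import Cfsg.Agent.H606.PQR.Pieces

/-!
# The criterion for products with averages, the double coset bound (helper606, for S3988)

* `exists_mul_mem` : `Avg X R` and `R² (|C(y)| - 1) (|S| / |Z| - 1) < 1` ==> a conjugate of some `x ∈ X` times a conjugate
  of `y` lies in `Z`.
* `sq_le_of_cover` : `G` covered by `n` double cosets of `H` ==> `⟨χ_H, 1⟩² ≤ n` for all irreducible `χ`
-/

set_option autoImplicit false

open scoped ComplexConjugate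
open Cfsg

namespace Cfsg.Agent.H606.Avg

open Cfsg.Agent.Characters.Core Cfsg.Agent.Characters.ClassMul
open Cfsg.Agent.H588.Ratio (sum_norm_sq sum_ne_one_norm_sq one sum_norm_sq_set)

universe u

section crit

variable {S : Type u} [Group S] [Finite S]

/-- **the criterion with averages** -/
theorem exists_mul_mem {X : Finset S} (hX : X.Nonempty) {y : S} {R : ℝ} (hR : Avg X R) {Z : Set S} (hne : Z.Nonempty)
    (hnum : R ^ 2 * ((Nat.card (Subgroup.centralizer ({y} : Set S)) : ℝ) - 1) *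
      ((Nat.card S : ℝ) / Nat.card Z - 1) < 1) :
    ∃ x ∈ X, ∃ g h : S, g * x * g⁻¹ * (h * y * h⁻¹) ∈ Z := by
  classical
  by_contra hcon
  push Not at hcon
  have := Fintype.ofFinite S
  have := finite_irr (G := S)
  have := Fintype.ofFinite (IrrCharacter S)
  have := Fintype.ofFinite Z
  set Zf : Finset S := Z.toFinset with hZf
  have hcard : Nat.card Z = Zf.card := by rw [Nat.card_eq_fintype_card, Set.toFinset_card]
  have hpos : 0 < Zf.card := by
    rw [Finset.card_pos, hZf, Set.toFinset_nonempty]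
    exact hne
  have hXpos : 0 < X.card := Finset.card_pos.2 hX
  have hS : (Nat.card S : ℂ) ≠ 0 := by exact_mod_cast Nat.card_pos.ne'
  have h1 : ∀ x ∈ X, ∀ z ∈ Zf, ∑ χ : IrrCharacter S,
      (χ : S → ℂ) x * (χ : S → ℂ) y * conj ((χ : S → ℂ) z) / (χ : S → ℂ) 1 = 0 := by
    intro x hx z hz
    have h2 := card_conj_mul_conj x y z
    have h3 : Nat.card {p : S × S // p.1 * x * p.1⁻¹ * (p.2 * y * p.2⁻¹) = z} = 0 := by
      rw [Nat.card_eq_zero]
      refine Or.inl ⟨fun p => hcon x hx p.1.1 p.1.2 ?_⟩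
      rw [p.2]
      exact Set.mem_toFinset.1 hz
    rw [h3, Nat.cast_zero] at h2
    exact (mul_eq_zero.1 h2.symm).resolve_left hS
  let s : IrrCharacter S → ℂ := fun χ => ∑ z ∈ Zf, (χ : S → ℂ) z
  let ξ : IrrCharacter S → ℂ := fun χ => ∑ x ∈ X, (χ : S → ℂ) x
  have h2 : ∑ χ : IrrCharacter S, ξ χ * (χ : S → ℂ) y * conj (s χ) / (χ : S → ℂ) 1 = 0 := by
    have e : ∀ χ : IrrCharacter S, ξ χ * (χ : S → ℂ) y * conj (s χ) / (χ : S → ℂ) 1 =
        ∑ x ∈ X, ∑ z ∈ Zf, (χ : S → ℂ) x * (χ : S → ℂ) y * conj ((χ : S → ℂ) z) / (χ : S → ℂ) 1 := by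
      intro χ
      simp only [s, ξ]
      rw [Finset.sum_mul, Finset.sum_mul, Finset.sum_div]
      refine Finset.sum_congr rfl fun x _ => ?_
      rw [map_sum, Finset.mul_sum, Finset.sum_div]
    rw [Finset.sum_congr rfl fun χ _ => e χ, Finset.sum_comm, Finset.sum_eq_zero]
    intro x hx
    rw [Finset.sum_comm, Finset.sum_eq_zero (h1 x hx)]
  rw [← Finset.add_sum_erase _ _ (Finset.mem_univ (one : IrrCharacter S))] at h2
  have hs1 : s one = (Zf.card : ℂ) := by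
    show ∑ z ∈ Zf, (1 : ℂ) = _
    rw [Finset.sum_const, nsmul_eq_mul, mul_one]
  have hξ1 : ξ one = (X.card : ℂ) := by
    show ∑ z ∈ X, (1 : ℂ) = _
    rw [Finset.sum_const, nsmul_eq_mul, mul_one]
  have hone : ξ one * ((one : IrrCharacter S) : S → ℂ) y *
      conj (s one) / ((one : IrrCharacter S) : S → ℂ) 1 = (X.card : ℂ) * (Zf.card : ℂ) := by
    rw [hs1, hξ1]
    simp [one]
  rw [hone] at h2
  have h3 : (X.card : ℝ) * (Zf.card : ℝ) ≤
      X.card * (R * ∑ χ ∈ Finset.univ.erase (one : IrrCharacter S), (‖(χ : S → ℂ) y‖ * ‖s χ‖)) := by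
    have e : (X.card : ℂ) * (Zf.card : ℂ) = -∑ χ ∈ Finset.univ.erase (one : IrrCharacter S),
        ξ χ * (χ : S → ℂ) y * conj (s χ) / (χ : S → ℂ) 1 := eq_neg_of_add_eq_zero_left h2
    have e2 : (X.card : ℝ) * (Zf.card : ℝ) = ‖(X.card : ℂ) * (Zf.card : ℂ)‖ := by
      rw [norm_mul, Complex.norm_natCast, Complex.norm_natCast]
    rw [e2, e, norm_neg, ← mul_assoc, Finset.mul_sum]
    refine (norm_sum_le _ _).trans (Finset.sum_le_sum fun χ hχ => ?_)
    have hχ1 : (χ : S → ℂ) ≠ 1 := fun h => (Finset.mem_erase.1 hχ).1 (Subtype.ext h)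
    have h4 : ‖ξ χ‖ ≤ R * X.card * ‖(χ : S → ℂ) 1‖ := hR χ χ.2 hχ1
    have h5 : 0 < ‖(χ : S → ℂ) 1‖ := norm_pos_iff.2 (isIrr_apply_one_ne_zero χ.2)
    rw [norm_div, norm_mul, norm_mul, Complex.norm_conj, div_le_iff₀ h5]
    have h6 : 0 ≤ ‖(χ : S → ℂ) y‖ * ‖s χ‖ := by positivity
    have h7 := mul_le_mul_of_nonneg_right h4 h6
    calc ‖ξ χ‖ * ‖(χ : S → ℂ) y‖ * ‖s χ‖ = ‖ξ χ‖ * (‖(χ : S → ℂ) y‖ * ‖s χ‖) := by ring
      _ ≤ R * X.card * ‖(χ : S → ℂ) 1‖ * (‖(χ : S → ℂ) y‖ * ‖s χ‖) := h7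
      _ = X.card * R * (‖(χ : S → ℂ) y‖ * ‖s χ‖) * ‖(χ : S → ℂ) 1‖ := by ring
  have hXpos' : (0 : ℝ) < X.card := by exact_mod_cast hXpos
  have h3' := le_of_mul_le_mul_left h3 hXpos'
  have h4 := Finset.sum_mul_sq_le_sq_mul_sq (Finset.univ.erase (one : IrrCharacter S))
    (fun χ => ‖(χ : S → ℂ) y‖) (fun χ => ‖s χ‖)
  rw [sum_ne_one_norm_sq] at h4
  have h5 : ∑ χ ∈ Finset.univ.erase (one : IrrCharacter S), ‖s χ‖ ^ 2 ≤
      (Nat.card S : ℝ) * Zf.card - (Zf.card : ℝ) ^ 2 := by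
    have e := sum_norm_sq_set (S := S) Zf
    rw [← Finset.add_sum_erase _ _ (Finset.mem_univ (one : IrrCharacter S))] at e
    have e2 : ‖∑ z ∈ Zf, ((one : IrrCharacter S) : S → ℂ) z‖ ^ 2 = (Zf.card : ℝ) ^ 2 := by
      have : ∑ z ∈ Zf, ((one : IrrCharacter S) : S → ℂ) z = (Zf.card : ℂ) := hs1
      rw [this, Complex.norm_natCast]
    rw [e2] at e
    have e3 : ∑ χ ∈ Finset.univ.erase (one : IrrCharacter S), ‖s χ‖ ^ 2 =
        ∑ χ ∈ Finset.univ.erase (one : IrrCharacter S), ‖∑ z ∈ Zf, (χ : S → ℂ) z‖ ^ 2 := rfl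
    rw [e3]
    linarith
  set σ : ℝ := ∑ χ ∈ Finset.univ.erase (one : IrrCharacter S), ‖(χ : S → ℂ) y‖ * ‖s χ‖ with hσ
  have hc1 : (1 : ℝ) ≤ Nat.card (Subgroup.centralizer ({y} : Set S)) := by exact_mod_cast Nat.card_pos
  set c : ℝ := (Nat.card (Subgroup.centralizer ({y} : Set S)) : ℝ) - 1 with hc
  have hc0 : 0 ≤ c := by rw [hc]; linarith
  have hz0 : (0 : ℝ) < Zf.card := by exact_mod_cast hpos
  have h6 : (Zf.card : ℝ) ^ 2 ≤ R ^ 2 * (c * ((Nat.card S : ℝ) * Zf.card - (Zf.card : ℝ) ^ 2)) := by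
    calc (Zf.card : ℝ) ^ 2 ≤ (R * σ) ^ 2 := by
          exact pow_le_pow_left₀ hz0.le h3' 2
      _ = R ^ 2 * σ ^ 2 := by ring
      _ ≤ R ^ 2 * (c * ∑ χ ∈ Finset.univ.erase (one : IrrCharacter S), ‖s χ‖ ^ 2) :=
          mul_le_mul_of_nonneg_left h4 (by positivity)
      _ ≤ _ := mul_le_mul_of_nonneg_left (mul_le_mul_of_nonneg_left h5 hc0) (by positivity)
  rw [hcard] at hnum
  have h7 : R ^ 2 * (c * ((Nat.card S : ℝ) * Zf.card - (Zf.card : ℝ) ^ 2)) =
      (R ^ 2 * c * ((Nat.card S : ℝ) / Zf.card - 1)) * (Zf.card : ℝ) ^ 2 := by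
    field_simp
  rw [h7] at h6
  have h8 : (R ^ 2 * c * ((Nat.card S : ℝ) / Zf.card - 1)) * (Zf.card : ℝ) ^ 2 < 1 * (Zf.card : ℝ) ^ 2 :=
    mul_lt_mul_of_pos_right hnum (by positivity)
  linarith

end crit

section cover

variable {G : Type u} [Group G] [Finite G]

/-- the number of the pairs `(c, h)` with `h ∈ H`, `c h c⁻¹ ∈ H` is at most `n |H|²` -/
theorem card_pairs_le {H : Subgroup G} {n : ℕ} (hDC : PQR.DC H n) :
    Nat.card {p : G × G // p.2 ∈ H ∧ p.1 * p.2 * p.1⁻¹ ∈ H} ≤ n * Nat.card H ^ 2 := by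
  classical
  obtain ⟨T, hT, hc⟩ := hDC
  choose a ha t ht b hb e using hc
  let F : {p : G × G // p.2 ∈ H ∧ p.1 * p.2 * p.1⁻¹ ∈ H} → T × H × H := fun p =>
    (⟨t p.1.1, ht _⟩, ⟨p.1.1 * p.1.2 * p.1.1⁻¹ * a p.1.1, H.mul_mem p.2.2 (ha _)⟩,
      ⟨b p.1.1 * p.1.2⁻¹, H.mul_mem (hb _) (H.inv_mem p.2.1)⟩)
  have hF : Function.Injective F := by
    rintro ⟨⟨c, h⟩, h1, h2⟩ ⟨⟨c', h'⟩, h1', h2'⟩ hE
    simp only [F, Prod.mk.injEq, Subtype.mk.injEq] at hE
    obtain ⟨e1, e2, e3⟩ := hE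
    have key : ∀ c h : G, c * h * c⁻¹ * a c * t c * (b c * h⁻¹) = c := by
      intro c h
      have : c * h * c⁻¹ * a c * t c * (b c * h⁻¹) = c * h * c⁻¹ * (a c * t c * b c) * h⁻¹ := by group
      rw [this, ← e c]
      group
    have h3 : c = c' := by
      rw [← key c h, ← key c' h', e1, e2, e3]
    subst h3
    have h4 : h = h' := inv_injective (mul_left_cancel e3)
    subst h4
    rfl
  have h1 := Nat.card_le_card_of_injective F hF
  refine h1.trans ?_
  rw [Nat.card_prod, Nat.card_prod, Nat.card_eq_fintype_card, Fintype.card_coe, sq]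
  exact Nat.mul_le_mul_right _ hT

/-- the number of the `a` with `a g a⁻¹ ∈ H` -/
noncomputable def perm [Fintype G] (H : Subgroup G) (g : G) : ℂ :=
  open scoped Classical in ((Finset.univ.filter fun a : G => a * g * a⁻¹ ∈ H).card : ℂ)

theorem perm_class [Fintype G] (H : Subgroup G) : IsClassFunction G (perm H) := by
  classical
  intro g x
  unfold perm
  norm_cast
  refine Finset.card_bij (fun a _ => a * x) ?_ ?_ ?_
  · intro a ha
    rw [Finset.mem_filter] at ha ⊢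
    refine ⟨Finset.mem_univ _, ?_⟩
    have e : a * x * g * (a * x)⁻¹ = a * (x * g * x⁻¹) * a⁻¹ := by group
    rw [e]
    exact ha.2
  · intro a _ b _ h
    exact mul_right_cancel h
  · intro a ha
    rw [Finset.mem_filter] at ha
    refine ⟨a * x⁻¹, ?_, by group⟩
    rw [Finset.mem_filter]
    refine ⟨Finset.mem_univ _, ?_⟩
    have e : a * x⁻¹ * (x * g * x⁻¹) * (a * x⁻¹)⁻¹ = a * g * a⁻¹ := by group
    rw [e]
    exact ha.2

/-- Frobenius reciprocity -/
theorem sum_perm_mul [Fintype G] (H : Subgroup G) [Fintype H] {f : G → ℂ} (hf : IsClassFunction G f) :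
    ∑ g : G, perm H g * f g = (Nat.card G : ℂ) * ∑ h : H, f h := by
  classical
  have e1 : ∀ g : G, perm H g * f g = ∑ a : G, if a * g * a⁻¹ ∈ H then f g else 0 := by
    intro g
    unfold perm
    rw [← Finset.sum_filter, Finset.sum_const, nsmul_eq_mul]
  rw [Finset.sum_congr rfl fun g _ => e1 g, Finset.sum_comm]
  have e2 : ∀ a : G, (∑ g : G, if a * g * a⁻¹ ∈ H then f g else 0) = ∑ h : H, f h := by
    intro a
    have e3 : (∑ g : G, if a * g * a⁻¹ ∈ H then f g else 0) = ∑ g : G, if g ∈ H then f g else 0 := by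
      refine Fintype.sum_equiv (MulAut.conj a).toEquiv _ _ fun g => ?_
      show _ = if a * g * a⁻¹ ∈ H then f (a * g * a⁻¹) else 0
      rw [hf g a]
    rw [e3, ← Finset.sum_filter]
    refine Finset.sum_bij' (fun g hg => (⟨g, (Finset.mem_filter.1 hg).2⟩ : H)) (fun h _ => (h : G)) ?_ ?_ ?_ ?_ ?_
    · intro g _; exact Finset.mem_univ _
    · intro h _; exact Finset.mem_filter.2 ⟨Finset.mem_univ _, h.2⟩
    · intro g _; rfl
    · intro h _; rfl
    · intro g _; rfl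
  rw [Finset.sum_congr rfl fun a _ => e2 a, Finset.sum_const, nsmul_eq_mul, Finset.card_univ, ← Nat.card_eq_fintype_card]

theorem sq_le_of_cover {H : Subgroup G} {n : ℕ} (hDC : PQR.DC H n) [Fintype H] {χ : G → ℂ} (hχ : IsIrrCharacter G χ)
    {m : ℕ} (hm : classInner (fun h : H => χ h) 1 = m) : m ^ 2 ≤ n := by
  classical
  have := Fintype.ofFinite G
  have := finite_irr (G := G)
  have := Fintype.ofFinite (IrrCharacter G)
  have hG0 : (Nat.card G : ℂ) ≠ 0 := by exact_mod_cast Nat.card_pos.ne'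
  have hH0 : (Nat.card H : ℂ) ≠ 0 := by exact_mod_cast Nat.card_pos.ne'
  have h1 : classInner (perm H) χ = Nat.card H * m := by
    rw [classInner_def]
    have h2 := sum_perm_mul H (f := fun g => conj (χ g)) (fun g x => by
      show conj (χ _) = conj (χ _)
      rw [isIrr_isClassFunction hχ g x])
    rw [h2, ← mul_assoc, inv_mul_cancel₀ hG0, one_mul]
    have h3 : classInner (fun h : H => χ h) 1 = m := hm
    rw [classInner_def] at h3
    have h4 : ∑ h : H, χ h = Nat.card H * m := by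
      rw [← h3, ← mul_assoc, mul_inv_cancel₀ hH0, one_mul]
      refine Finset.sum_congr rfl fun h _ => ?_
      simp
    have h5 : ∑ h : H, conj (χ h) = conj (∑ h : H, χ h) := by rw [map_sum]
    show ∑ h : H, conj (χ h) = _
    rw [h5, h4, map_mul, Complex.conj_natCast, Complex.conj_natCast]
  have h2 : classInner (perm H) (perm H) = (Nat.card {p : G × G // p.2 ∈ H ∧ p.1 * p.2 * p.1⁻¹ ∈ H} : ℂ) := by
    rw [classInner_def]
    have hreal : ∀ g, conj (perm H g) = perm H g := by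
      intro g
      unfold perm
      rw [Complex.conj_natCast]
    simp only [hreal]
    rw [sum_perm_mul H (perm_class H), ← mul_assoc, inv_mul_cancel₀ hG0, one_mul]
    unfold perm
    norm_cast
    rw [Nat.card_eq_fintype_card, Fintype.card_subtype, ← Finset.card_sigma]
    refine Finset.card_bij (fun p _ => (p.2, (p.1 : G))) ?_ ?_ ?_
    · rintro ⟨h, a⟩ hp
      rw [Finset.mem_sigma, Finset.mem_filter] at hp
      rw [Finset.mem_filter]
      exact ⟨Finset.mem_univ _, h.2, hp.2.2⟩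
    · rintro ⟨h, a⟩ _ ⟨h', a'⟩ _ e
      simp only [Prod.mk.injEq] at e
      obtain ⟨e1, e2⟩ := e
      have e3 : h = h' := Subtype.ext e2
      subst e3
      subst e1
      rfl
    · rintro ⟨a, h⟩ hp
      rw [Finset.mem_filter] at hp
      refine ⟨⟨⟨h, hp.2.1⟩, a⟩, ?_, rfl⟩
      rw [Finset.mem_sigma, Finset.mem_filter]
      exact ⟨Finset.mem_univ _, Finset.mem_univ _, hp.2.2⟩
  have h3 := classInner_eq_sum (perm_class H) (perm_class H)
  generalize hN : Nat.card {p : G × G // p.2 ∈ H ∧ p.1 * p.2 * p.1⁻¹ ∈ H} = N at h2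
  have h8 := card_pairs_le hDC
  rw [hN] at h8
  let q : IrrCharacter G → ℝ := fun ψ => ‖classInner (perm H) (ψ : G → ℂ)‖ ^ 2
  have h4 : ((N : ℝ) : ℂ) = ((∑ ψ : IrrCharacter G, q ψ : ℝ) : ℂ) := by
    rw [Complex.ofReal_natCast, ← h2, h3, Complex.ofReal_sum]
    refine Finset.sum_congr rfl fun ψ _ => ?_
    rw [Complex.mul_conj, Complex.normSq_eq_norm_sq]
  have h5 : (N : ℝ) = ∑ ψ : IrrCharacter G, q ψ := Complex.ofReal_injective h4
  have h6' : q ⟨χ, hχ⟩ ≤ ∑ ψ : IrrCharacter G, q ψ :=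
    Finset.single_le_sum (f := q) (a := (⟨χ, hχ⟩ : IrrCharacter G)) (s := Finset.univ)
      (fun ψ _ => sq_nonneg ‖classInner (perm H) (ψ : G → ℂ)‖) (Finset.mem_univ _)
  rw [← h5] at h6'
  have h6 : ‖classInner (perm H) χ‖ ^ 2 ≤ (N : ℝ) := h6'
  rw [h1, norm_mul, Complex.norm_natCast, Complex.norm_natCast] at h6
  have h9 : ((Nat.card H : ℝ) * m) ^ 2 ≤ n * (Nat.card H : ℝ) ^ 2 := h6.trans (by exact_mod_cast h8)
  rw [mul_pow, mul_comm] at h9
  have hHp : (0 : ℝ) < (Nat.card H : ℝ) ^ 2 := pow_pos (by exact_mod_cast Nat.card_pos) 2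
  have h10 : (m : ℝ) ^ 2 ≤ n := le_of_mul_le_mul_right h9 hHp
  exact_mod_cast h10

end cover

end Cfsg.Agent.H606.Avg
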