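import Cfsg.Agent.H606.PQR.Pieces
import Mathlib.GroupTheory.GroupAction.Transitive

/-!
# Coverings by double cosets (helper606, for S3988)
-/

set_option autoImplicit false

open Subgroup

namespace Cfsg.Agent.H606.PQR

theorem DC.map {G G' : Type*} [Group G] [Group G'] (e : G ≃* G') {H : Subgroup G} {n : ℕ} (h : DC H n) :
    DC (H.map e.toMonoidHom) n := by
  classical
  obtain ⟨T, hT, hc⟩ := h
  refine ⟨T.image e, Finset.card_image_le.trans hT, fun g => ?_⟩
  obtain ⟨a, ha, t, ht, b, hb, h1⟩ := hc (e.symm g)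
  refine ⟨e a, ⟨a, ha, rfl⟩, e t, Finset.mem_image_of_mem _ ht, e b, ⟨b, hb, rfl⟩, ?_⟩
  rw [← map_mul, ← map_mul, ← h1, e.apply_symm_apply]

theorem DC.mono {G : Type*} [Group G] {H : Subgroup G} {n m : ℕ} (h : DC H n) (hnm : n ≤ m) : DC H m := by
  obtain ⟨T, hT, hc⟩ := h
  exact ⟨T, hT.trans hnm, hc⟩

/-- the centralizers of conjugate elements of isomorphic groups -/
theorem DC.cent {G G' : Type*} [Group G] [Group G'] (e : G ≃* G') {x : G} {y : G'} (hxy : IsConj (e x) y) {n : ℕ}
    (h : DC (centralizer ({x} : Set G)) n) : DC (centralizer ({y} : Set G')) n := by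
  obtain ⟨k, hk⟩ := isConj_iff.1 hxy
  have h1 := (DC.map (e.trans (MulAut.conj k)) h)
  have h2 : (centralizer ({x} : Set G)).map (e.trans (MulAut.conj k)).toMonoidHom = centralizer ({y} : Set G') := by
    ext g
    rw [mem_centralizer_singleton_iff]
    constructor
    · rintro ⟨a, ha, rfl⟩
      have ha' : a * x = x * a := mem_centralizer_singleton_iff.1 ha
      show k * e a * k⁻¹ * y = y * (k * e a * k⁻¹)
      rw [← hk]
      have e1 : e a * e x = e x * e a := by rw [← map_mul, ha', map_mul]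
      calc k * e a * k⁻¹ * (k * e x * k⁻¹) = k * (e a * e x) * k⁻¹ := by group
        _ = k * (e x * e a) * k⁻¹ := by rw [e1]
        _ = _ := by group
    · intro hg
      refine ⟨e.symm (k⁻¹ * g * k), ?_, ?_⟩
      · show e.symm (k⁻¹ * g * k) ∈ centralizer ({x} : Set G)
        rw [mem_centralizer_singleton_iff]
        apply e.injective
        rw [map_mul e, map_mul e, e.apply_symm_apply]
        have e1 : e x = k⁻¹ * y * k := by rw [← hk]; group
        rw [e1]
        calc k⁻¹ * g * k * (k⁻¹ * y * k) = k⁻¹ * (g * y) * k := by group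
          _ = k⁻¹ * (y * g) * k := by rw [hg]
          _ = _ := by group
      · show k * e (e.symm (k⁻¹ * g * k)) * k⁻¹ = g
        rw [e.apply_symm_apply]
        group
  rwa [h2] at h1

/-- the stabiliser of a point in a transitive action, the colours of the pairs are the orbits on pairs -/
theorem DC.of_col {G X : Type*} [Group G] [MulAction G X] {n : ℕ} {c : X → X → Fin n}
    (tr : ∀ x y x' y' : X, c x y = c x' y' → ∃ g : G, g • x = x' ∧ g • y = y') (x : X) {H : Subgroup G}
    (hH : ∀ g : G, g • x = x → g ∈ H) : DC H n := by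
  classical
  let f : Fin n → G := fun u => if h : ∃ g : G, c x (g • x) = u then h.choose else 1
  refine ⟨Finset.univ.image f, Finset.card_image_le.trans (by simp), fun g => ?_⟩
  have h1 : ∃ g' : G, c x (g' • x) = c x (g • x) := ⟨g, rfl⟩
  have h2 : c x (f (c x (g • x)) • x) = c x (g • x) := by
    simp only [f]
    rw [dif_pos h1]
    exact h1.choose_spec
  obtain ⟨k, hk1, hk2⟩ := tr _ _ _ _ h2
  refine ⟨k, hH _ hk1, f (c x (g • x)), Finset.mem_image_of_mem _ (Finset.mem_univ _), (k * f (c x (g • x)))⁻¹ * g, ?_, ?_⟩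
  · apply hH
    rw [mul_smul, inv_smul_eq_iff, mul_smul, hk2]
  · group

/-- a subgroup of index at most two -/
theorem DC.of_index_two {G : Type*} [Group G] {C H : Subgroup G} {n : ℕ} (h : DC C n) {c : G}
    (hc : ∀ g ∈ C, g ∈ H ∨ g * c⁻¹ ∈ H) (hc' : ∀ g ∈ C, g ∈ H ∨ c⁻¹ * g ∈ H) : DC H (4 * n) := by
  classical
  obtain ⟨T, hT, hcov⟩ := h
  refine ⟨T.image (fun t => t) ∪ T.image (fun t => c * t) ∪ (T.image (fun t => t * c) ∪ T.image (fun t => c * t * c)),
    ?_, fun g => ?_⟩
  · refine (Finset.card_union_le _ _).trans ?_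
    have h1 := Finset.card_union_le (T.image (fun t => t)) (T.image (fun t => c * t))
    have h2 := Finset.card_union_le (T.image (fun t => t * c)) (T.image (fun t => c * t * c))
    have h3 := Finset.card_image_le (s := T) (f := fun t => t)
    have h4 := Finset.card_image_le (s := T) (f := fun t => c * t)
    have h5 := Finset.card_image_le (s := T) (f := fun t => t * c)
    have h6 := Finset.card_image_le (s := T) (f := fun t => c * t * c)
    omega
  · obtain ⟨a, ha, t, ht, b, hb, e⟩ := hcov g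
    rcases hc a ha with h1 | h1 <;> rcases hc' b hb with h2 | h2
    · exact ⟨a, h1, t, Finset.mem_union_left _ (Finset.mem_union_left _ (Finset.mem_image.2 ⟨t, ht, rfl⟩)), b, h2, e⟩
    · refine ⟨a, h1, t * c, Finset.mem_union_right _ (Finset.mem_union_left _ (Finset.mem_image.2 ⟨t, ht, rfl⟩)),
        c⁻¹ * b, h2, ?_⟩
      rw [e]; group
    · refine ⟨a * c⁻¹, h1, c * t, Finset.mem_union_left _ (Finset.mem_union_right _ (Finset.mem_image.2 ⟨t, ht, rfl⟩)),
        b, h2, ?_⟩
      rw [e]; group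
    · refine ⟨a * c⁻¹, h1, c * t * c, Finset.mem_union_right _ (Finset.mem_union_right _ (Finset.mem_image.2 ⟨t, ht, rfl⟩)),
        c⁻¹ * b, h2, ?_⟩
      rw [e]; group

theorem DC.of_relIndex_two {G : Type*} [Group G] {C H : Subgroup G} {n : ℕ} (h : DC C n) (hi : H.relIndex C = 2) :
    DC H (4 * n) := by
  have h1 : (H.subgroupOf C).index = 2 := hi
  obtain ⟨c, hc⟩ := Subgroup.index_eq_two_iff.1 h1
  have key : ∀ g ∈ C, g ∈ H ∨ g * (c : G) ∈ H := by
    intro g hg
    rcases hc ⟨g, hg⟩ with h2 | h2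
    · exact Or.inr (mem_subgroupOf.1 h2.1)
    · exact Or.inl (mem_subgroupOf.1 h2.1)
  refine DC.of_index_two (c := (c : G)⁻¹) h (fun g hg => ?_) fun g hg => ?_
  · rw [inv_inv]; exact key g hg
  · rw [inv_inv]
    rcases key g⁻¹ (C.inv_mem hg) with h2 | h2
    · exact Or.inl (by simpa using H.inv_mem h2)
    · right
      -- `g⁻¹ c ∈ H`, `H` is normal in `C`
      have h3 : (H.subgroupOf C).Normal := Subgroup.normal_of_index_eq_two h1
      rcases key ((c : G) * g) (C.mul_mem c.2 hg) with h4 | h4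
      · exact h4
      · -- `c g c ∈ H` and `g⁻¹ c ∈ H`: `c c ∈ H`-coset argument
        have h5 : (c : G) * c ∈ H := by
          have := Subgroup.mul_self_mem_of_index_two h1 c
          exact mem_subgroupOf.1 this
        have h6 : (c : G) * g * c * (g⁻¹ * c) ∈ H := H.mul_mem h4 h2
        have h7 : (c : G) * g * c ∈ H := h4
        -- conjugate `g⁻¹ c` by `c`
        have h8 : (c : G) * (g⁻¹ * c) * (c : G)⁻¹ ∈ H := by
          have := h3.conj_mem ⟨g⁻¹ * c, C.mul_mem (C.inv_mem hg) c.2⟩ (mem_subgroupOf.2 h2) c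
          exact mem_subgroupOf.1 this
        have h9 : (c : G) * g⁻¹ ∈ H := by
          have e : (c : G) * (g⁻¹ * c) * (c : G)⁻¹ = c * g⁻¹ := by group
          rwa [e] at h8
        have h10 : g * (c : G)⁻¹ ∈ H := by
          have := H.inv_mem h9
          rwa [mul_inv_rev, inv_inv] at this
        have h11 : (c : G)⁻¹ * g ∈ H := by
          have := h3.conj_mem ⟨g * (c : G)⁻¹, C.mul_mem hg (C.inv_mem c.2)⟩ (mem_subgroupOf.2 h10) c⁻¹
          have h12 : (c : G)⁻¹ * (g * (c : G)⁻¹) * ((c : G)⁻¹)⁻¹ ∈ H := mem_subgroupOf.1 this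
          have e : (c : G)⁻¹ * (g * (c : G)⁻¹) * ((c : G)⁻¹)⁻¹ = (c : G)⁻¹ * g := by group
          rwa [e] at h12
        have e : (c : G) * g = (c * c) * ((c : G)⁻¹ * g) := by group
        rw [e]
        exact H.mul_mem h5 h11

end Cfsg.Agent.H606.PQR
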