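import Cfsg.Agent.H606.PQR.Avg
import Cfsg.Agent.H863.BMin
import Cfsg.Agent.H847.MonDeg

/-!
# The degrees of the nontrivial irreducible characters of `B` and `M` (helper606, for S3988)
-/

set_option autoImplicit false

open Cfsg

namespace Cfsg.Agent.H606.Avg

open Cfsg.Agent.Characters.Core

universe u

theorem ne_one_of_irr {G : Type u} [Group G] [Finite G] {n : ℕ} {ρ : Representation ℂ G (Fin n → ℂ)}
    (hρ : ρ.IsIrreducible) (h1 : ρ.character ≠ 1) : ρ ≠ 1 := by
  rintro rfl
  have := Fintype.ofFinite G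
  have h2 : IsIrrCharacter G (Representation.character (1 : Representation ℂ G (Fin n → ℂ))) := ⟨n, 1, hρ, rfl⟩
  have h3 := sum_sq h2
  have h4 : ∀ g : G, Representation.character (1 : Representation ℂ G (Fin n → ℂ)) g = (n : ℂ) := by
    intro g
    have : Representation.character (1 : Representation ℂ G (Fin n → ℂ)) g =
      Representation.character (1 : Representation ℂ G (Fin n → ℂ)) 1 := rfl
    rw [this, Representation.char_one, Module.finrank_fin_fun]
  simp only [h4, Complex.norm_natCast] at h3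
  rw [Finset.sum_const, Finset.card_univ, nsmul_eq_mul, ← Nat.card_eq_fintype_card] at h3
  have h0 : (0 : ℝ) < Nat.card G := by exact_mod_cast Nat.card_pos
  have h5 : (n : ℝ) ^ 2 = 1 := by
    have := mul_left_cancel₀ h0.ne' (h3.trans (mul_one _).symm)
    exact this
  have h6 : n = 1 := by
    have : n ^ 2 = 1 := by exact_mod_cast h5
    exact (pow_eq_one_iff.1 this).resolve_right (by norm_num)
  apply h1
  funext g
  rw [h4, h6]
  simp

theorem deg_B (χ : Spor.BabyMonster → ℂ) (hχ : IsIrrCharacter _ χ) (h1 : χ ≠ 1) [Finite Spor.BabyMonster] :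
    (4371 : ℝ) ≤ ‖χ 1‖ := by
  obtain ⟨n, ρ, hρ, rfl⟩ := hχ
  have h2 := Cfsg.Agent.H863.BMin.min_degree (F := ℂ) (by norm_num) ρ (ne_one_of_irr hρ h1)
  rw [Representation.char_one, Complex.norm_natCast]
  exact_mod_cast h2

theorem deg_M (χ : Spor.Monster → ℂ) (hχ : IsIrrCharacter _ χ) (h1 : χ ≠ 1) [Finite Spor.Monster] :
    (196883 : ℝ) ≤ ‖χ 1‖ := by
  obtain ⟨n, ρ, hρ, rfl⟩ := hχ
  have h3 := ne_one_of_irr hρ h1
  have h2 := Cfsg.Agent.H847.MonDeg.bound ρ (by
    by_contra hcon
    push Not at hcon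
    exact h3 (MonoidHom.ext hcon))
  rw [Representation.char_one, Complex.norm_natCast]
  exact_mod_cast h2

end Cfsg.Agent.H606.Avg
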