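import Cfsg.Agent.H606.PQR.AvgCrit
import Cfsg.Agent.H606.PQR.DCLib
import Cfsg.Agent.H588.PQR.Crit

/-!
# Lifting of the sets of `2`-elements, triples (helper606, for S3988)
-/

set_option autoImplicit false

open Cfsg

namespace Cfsg.Agent.H606.Avg

open Cfsg.Agent.Characters.Core Cfsg.Agent.H562.PQR Cfsg.Agent.H606.PQR
open Cfsg.Agent.H80.Fpf (MultDvd)

universe u v

theorem exists_avg {G : Type u} [Group G] [Finite G] {K : Type v} [Group K] [Finite K] {H : Subgroup G} {φ : ↥H →* K}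
    (hφ : Function.Surjective φ) (hker : Nat.card φ.ker = 2) {n : ℕ} (hDC : DC H n) {j : ℕ} (hj : n < (j + 1) ^ 2)
    {D : ℝ} (hD0 : 0 < D) (hD : ∀ χ : G → ℂ, IsIrrCharacter G χ → χ ≠ 1 → D ≤ ‖χ 1‖)
    {R : Finset K} (hRne : R.Nonempty) (hR2 : ∀ x ∈ R, ∃ k : ℕ, orderOf x = 2 ^ k) {r : ℝ} (hr : 0 ≤ r) (hA : Avg R r) :
    ∃ X : Finset G, X.Nonempty ∧ (∀ x ∈ X, ∃ k : ℕ, orderOf x = 2 ^ k) ∧ Avg X (j / D + r) := by
  classical
  have := Fintype.ofFinite ↥H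
  refine ⟨pre φ R, ?_, fun x hx => ?_, Avg.lift hφ hr hA fun χ hχ h1 m hm => ?_⟩
  · obtain ⟨k, hk⟩ := hRne
    obtain ⟨x, hx⟩ := hφ k
    exact ⟨x, mem_pre.2 ⟨x.2, by rw [← hx] at hk; exact hk⟩⟩
  · obtain ⟨hxH, hxR⟩ := mem_pre.1 hx
    obtain ⟨k, hk⟩ := hR2 _ hxR
    have h1 : (⟨x, hxH⟩ : ↥H) ^ 2 ^ k ∈ φ.ker := by
      rw [MonoidHom.mem_ker, map_pow, ← hk, pow_orderOf_eq_one]
    have h2 : ((⟨x, hxH⟩ : ↥H) ^ 2 ^ k) ^ 2 = 1 := by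
      have h3 : (⟨_, h1⟩ : φ.ker) ^ Nat.card φ.ker = 1 := pow_card_eq_one'
      rw [hker] at h3
      exact congrArg Subtype.val h3
    have h3 : x ^ 2 ^ (k + 1) = 1 := by
      rw [← pow_mul, ← pow_succ] at h2
      exact congrArg Subtype.val h2
    obtain ⟨i, -, hi⟩ := (Nat.dvd_prime_pow Nat.prime_two).1 (orderOf_dvd_of_pow_eq_one h3)
    exact ⟨i, hi⟩
  · have h2 := sq_le_of_cover hDC hχ hm
    have h3 : m ≤ j := by
      have h4 : m ^ 2 < (j + 1) ^ 2 := lt_of_le_of_lt h2 hj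
      have := lt_of_pow_lt_pow_left₀ 2 (Nat.zero_le _) h4
      omega
    have h4 : (1 : ℝ) ≤ ‖χ 1‖ / D := by
      rw [one_le_div hD0]
      exact hD χ hχ h1
    calc (m : ℝ) ≤ j := by exact_mod_cast h3
      _ = j * 1 := (mul_one _).symm
      _ ≤ j * (‖χ 1‖ / D) := mul_le_mul_of_nonneg_left h4 (Nat.cast_nonneg _)
      _ = j / D * ‖χ 1‖ := by ring

/-- triples from the averages -/
theorem trip_avg {S : Type u} [Group S] [Finite S] {m p q : ℕ} (hm : MultDvd S m)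
    (hm' : ∀ s : ℕ, s.Prime → s ∣ m → s = 2) {X : Finset S} (hXne : X.Nonempty)
    (hX2 : ∀ x ∈ X, ∃ k : ℕ, orderOf x = 2 ^ k) {R : ℝ} (hR : Avg X R) (hq : q.Prime) (hq2 : q ≠ 2) {y : S}
    (hy : orderOf y = q) {B : Finset ℕ} (hBne : B.Nonempty) {n : ℕ → ℕ}
    (hB : ∀ b ∈ B, b.Prime ∧ ¬ b ^ 2 ∣ Nat.card S ∧
      ∃ z : S, orderOf z = b ∧ Nat.card (Subgroup.normalizer (Subgroup.zpowers z : Set S)) = n b)
    (hB2 : ∀ b ∈ B, b ≠ 2 ∧ b ≠ q) (hp : p = q ∨ ∀ b ∈ B, p = b) {c : ℕ}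
    (hc : Nat.card (Subgroup.centralizer ({y} : Set S)) ≤ c) {s : ℝ} (hs : ∑ b ∈ B, ((b : ℝ) - 1) / n b = s)
    (hs1 : 1 ≤ 1 / s) (hnum : R ^ 2 * ((c : ℝ) - 1) * (1 / s - 1) < 1) : Trip p S := by
  obtain ⟨hZne, hZ⟩ := Cfsg.Agent.H588.Ratio.card_div hB hBne
  rw [hs] at hZ
  have hc' : (Nat.card (Subgroup.centralizer ({y} : Set S)) : ℝ) ≤ c := by exact_mod_cast hc
  obtain ⟨x, hx, g, h, hz⟩ := exists_mul_mem (y := y) hXne hR hZne (by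
    rw [hZ]
    refine lt_of_le_of_lt ?_ hnum
    refine mul_le_mul_of_nonneg_right ?_ (by linarith)
    exact mul_le_mul_of_nonneg_left (by linarith) (by positivity))
  have hz' : orderOf (g * x * g⁻¹ * (h * y * h⁻¹)) ∈ B := hz
  have hx1 : x ≠ 1 := by
    rintro rfl
    have e : g * 1 * g⁻¹ * (h * y * h⁻¹) = MulAut.conj h y := by
      rw [mul_one, mul_inv_cancel, one_mul]; rfl
    rw [e, MulEquiv.orderOf_eq, hy] at hz'
    exact (hB2 q hz').2 rfl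
  refine Cfsg.Agent.H588.Ratio.trip_of_mem (a := 2) (b := q) hm (fun s hs hsm => Or.inr (Or.inl ?_)) Nat.prime_two hq
    hq2.symm ⟨hx1, hX2 x hx⟩ (PE.of_orderOf hq hy) (Z := {x : S | orderOf x ∈ B}) (fun z hz => ?_) ⟨g, h, hz⟩
  · exact hm' s hs hsm
  · have h3 : orderOf z ∈ B := hz
    refine ⟨orderOf z, (hB _ h3).1, (hB2 _ h3).1, (hB2 _ h3).2, PE.of_orderOf (hB _ h3).1 rfl, ?_, Or.inl rfl⟩
    rcases hp with h4 | h4
    · exact Or.inr (Or.inl h4)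
    · exact Or.inr (Or.inr (h4 _ h3))

end Cfsg.Agent.H606.Avg
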